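import Cfsg.Agent.Lib.BG.AmbSol
import Cfsg.Agent.Lib.PSL2Rec.Fix2

/-! Few conjugacy classes of maximal subgroups: a uniqueness lemma and a congruence for the index. -/

set_option autoImplicit false
set_option linter.unusedSectionVars false

namespace CfsgLib.FewMax

open Cfsg CfsgLib.BG Subgroup MulAction

variable {G : Type*} [Group G] [Finite G] {A B : Subgroup G} {q : ℕ}

/-- a `q`-subgroup which is not small lies in a unique conjugate of `A` -/
theorem uniq (hq : q.Prime) {Sm : Subgroup G → Prop} (mono : ∀ R S : Subgroup G, R ≤ S → Sm S → Sm R)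
    (hN : ∀ R : Subgroup G, IsPiSubgroup {q} R → ¬ Sm R → ∃ k, 𝒩(R) ≤ cj k A) (R : Subgroup G) :
    IsPiSubgroup {q} R → ¬ Sm R → ∀ g h, R ≤ cj g A → R ≤ cj h A → cj g A = cj h A := by
  induction R using WellFoundedGT.induction with
  | _ R ih =>
  intro hR hS
  obtain ⟨k, hk⟩ := hN R hR hS
  have Rk : R ≤ cj k A := (normG R).trans hk
  suffices H : ∀ g, R ≤ cj g A → cj g A = cj k A from fun g h hg hh => (H g hg).trans (H h hh).symm
  intro g hg
  obtain ⟨S, hS', RS⟩ := Sylow_superset hq hg hR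
  rcases RS.lt_or_eq with hlt | rfl
  · have h1 := nilpotent_proper_norm (pgp_nil (pHall_pgroup hS')) hlt
    exact ih _ h1 (pigroupS inf_le_left (pHall_pgroup hS')) (fun h => hS (mono _ _ h1.le h)) g k
      (inf_le_left.trans (pHall_sub hS')) (inf_le_right.trans hk)
  · have h1 : IsSylowOf q (cj (k * g⁻¹) R) (cj k A) := by
      have := (pHall_cj (g := k * g⁻¹)).2 hS'
      rwa [cj_cj, inv_mul_cancel_right] at this
    obtain ⟨x, hx, e⟩ := Sylow_trans hq h1 (pHall_of_card_eq h1 Rk (card_cj _ _).symm)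
    have h2 : k * g⁻¹ ∈ cj k A := by
      rw [cj_cj] at e
      exact (mul_mem_cancel_left hx).1 (hk (mem_norm_iff.2 e.symm))
    have h3 := cj_eq_of_mem (inv_mem h2)
    rwa [cj_cj, mul_inv_rev, inv_inv, inv_mul_cancel_right] at h3

theorem smul_mk_eq {x g : G} : x • (g : G ⧸ A) = g ↔ x ∈ cj g A := by
  rw [Quotient.smul_mk, QuotientGroup.eq, smul_eq_mul, mem_cj, ← inv_mem_iff]
  simp [mul_assoc]

/-- the index of `A` is congruent to one -/
theorem cong (hq : q.Prime) {Sm : Subgroup G → Prop} (mono : ∀ R S : Subgroup G, R ≤ S → Sm S → Sm R)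
    (hN : ∀ R : Subgroup G, IsPiSubgroup {q} R → ¬ Sm R → ∃ k, 𝒩(R) ≤ cj k A) (hA : 𝒩(A) ≤ A)
    {Q : Subgroup G} (hQ : IsPiSubgroup {q} Q) (hS : ¬ Sm Q) {d : ℕ}
    (hd : ∀ R ≤ Q, Sm R → d ∣ R.relIndex Q) : A.index ≡ 1 [MOD d] := by
  obtain ⟨k, hk⟩ := hN Q hQ hS
  have Qk := (normG Q).trans hk
  refine PSL2Rec.card_modEq_one_of_dvd_orbit (H := Q) (k : G ⧸ A) (fun x => smul_mk_eq.2 (Qk x.2)) fun a ha => ?_
  obtain ⟨g, rfl⟩ := QuotientGroup.mk_surjective a
  have h1 : stabilizer Q (g : G ⧸ A) = (Q ⊓ cj g A).subgroupOf Q := by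
    ext x
    rw [mem_stabilizer_iff, mem_subgroupOf, mem_inf, ← smul_mk_eq]
    exact ⟨fun h => ⟨x.2, h⟩, fun h => h.2⟩
  rw [Nat.card_coe_set_eq, ← index_stabilizer, h1]
  refine hd _ inf_le_left ?_
  by_contra hR
  have h2 := uniq hq mono hN _ (pigroupS inf_le_left hQ) hR g k inf_le_right (inf_le_left.trans Qk)
  refine ha (QuotientGroup.eq.2 (hA (mem_norm_iff.2 ?_)))
  rw [cj_mul, ← h2, cj_inv_cj]

/-- two classes of self-normalizing maximal subgroups: the index of one is `1` modulo the index of the other -/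
theorem cong_two (hloc : ∀ (q : ℕ) (R : Subgroup G), q.Prime → IsPiSubgroup {q} R → R ≠ ⊥ → 𝒩(R) ≠ ⊤)
    (hall : ∀ M : Subgroup G, IsCoatom M → ∃ g, M = cj g A ∨ M = cj g B) (hA : 𝒩(A) ≤ A) :
    B.index ∣ A.index - 1 := by
  refine (Nat.dvd_iff_prime_pow_dvd_dvd _ _).2 fun q j hq hj => ?_
  rcases Nat.eq_zero_or_pos j with rfl | hj0
  · simp
  obtain ⟨Q, hQ⟩ := Sylow_exists hq (⊤ : Subgroup G)
  have key : ∀ R ≤ Q, (∃ g, R ≤ cj g B) → q ^ j ∣ R.relIndex Q := by
    rintro R hR ⟨g, hg⟩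
    have h1 : q ^ j ∣ R.relIndex Q * Q.index := by
      rw [relIndex_mul_index hR]
      exact (hj.trans (index_cj g B).symm.dvd).trans (index_dvd_of_le hg)
    refine (Nat.Coprime.pow_left j ((Nat.Prime.coprime_iff_not_dvd hq).2 ?_)).dvd_of_dvd_mul_right h1
    simpa using Sylow_index hq hQ
  refine (Nat.modEq_iff_dvd' (Nat.pos_of_ne_zero index_ne_zero_of_finite)).1 (cong hq (Sm := fun R => ∃ g, R ≤ cj g B)
    (fun R S h ⟨g, hg⟩ => ⟨g, h.trans hg⟩) (fun R hR hS => ?_) hA (pHall_pgroup hQ) (fun h => ?_) key).symm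
  · obtain ⟨M, hM, h⟩ := (eq_top_or_exists_le_coatom _).resolve_left
      (hloc q R hq hR fun e => hS ⟨1, e ▸ bot_le⟩)
    obtain ⟨g, rfl | rfl⟩ := hall M hM
    · exact ⟨g, h⟩
    · exact absurd ⟨g, (normG R).trans h⟩ hS
  · have := key Q le_rfl h
    rw [relIndex_self, Nat.dvd_one, Nat.pow_eq_one] at this
    have := hq.one_lt
    omega

/-- Frattini argument -/
theorem core_bot (hloc : ∀ (q : ℕ) (R : Subgroup G), q.Prime → IsPiSubgroup {q} R → R ≠ ⊥ → 𝒩(R) ≠ ⊤)
    (hall : ∀ M : Subgroup G, IsCoatom M → ∃ g, M = cj g A ∨ M = cj g B) {N : Subgroup G} (hN : N.Normal)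
    (h : N ≤ A) : N = ⊥ := by
  have nN : ∀ g, cj g N = N := fun g => cj_eq_of_mem_norm ((normalIn_top.2 hN).norm (mem_top g))
  have key : ∀ q : ℕ, q.Prime → q ∣ Nat.card N → ∃ Q, IsSylowOf q Q N ∧ Q ≤ B ∧ ¬ N ≤ B := by
    intro q hq hd
    obtain ⟨Q, hQ⟩ := Sylow_exists hq N
    obtain ⟨M, hM, h1⟩ := (eq_top_or_exists_le_coatom _).resolve_left
      (hloc q Q hq (pHall_pgroup hQ) (Sylow_ne_bot hq hQ hd))
    have h2 : ¬ N ≤ M := fun h2 => hM.1 (top_le_iff.1
      ((Frattini_arg hq (normalIn_top.2 hN) hQ).ge.trans (sup_le h2 (inf_le_right.trans h1))))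
    obtain ⟨g, rfl | rfl⟩ := hall M hM
    · exact absurd (nN g ▸ cj_mono g h) h2
    · refine ⟨cj g⁻¹ Q, nN g⁻¹ ▸ pHall_cj.2 hQ, le_cj_iff_cj_inv_le.1 ((normG Q).trans h1),
        fun h3 => h2 (nN g ▸ cj_mono g h3)⟩
  by_contra hne
  obtain ⟨q, hq, hd⟩ := exists_prime_dvd_card hne
  obtain ⟨-, -, -, h1⟩ := key q hq hd
  exact h1 (le_of_forall_Sylow fun p hp hd => (key p hp hd).imp fun _ h => ⟨h.1, h.2.1⟩)

theorem norm_le (hloc : ∀ (q : ℕ) (R : Subgroup G), q.Prime → IsPiSubgroup {q} R → R ≠ ⊥ → 𝒩(R) ≠ ⊤)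
    (hall : ∀ M : Subgroup G, IsCoatom M → ∃ g, M = cj g A ∨ M = cj g B) (hA : IsCoatom A) : 𝒩(A) ≤ A := by
  by_contra hn
  have h1 : 𝒩(A) = ⊤ := hA.2 _ (lt_of_le_not_ge (normG A) hn)
  have h2 := core_bot hloc hall (normalizer_eq_top_iff.1 h1) le_rfl
  subst h2
  obtain ⟨q, hq, hd⟩ := exists_prime_dvd_card hA.1.symm
  obtain ⟨X, -, hX⟩ := exists_prime_subgroup hq hd
  have h3 := prime_ne_bot (hX ▸ hq : (Nat.card X).Prime)
  exact hloc q X hq (pgp_of_card_prime hX hq) h3 (hA.2 _ ((bot_lt_iff_ne_bot.2 h3).trans_le (normG X)))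

universe u

/-- a finite group with at most two conjugacy classes of maximal subgroups is solvable -/
theorem solv_two (n : ℕ) : ∀ (G : Type u) [Group G] [Finite G], Nat.card G = n → ∀ A B : Subgroup G,
    (∀ M : Subgroup G, IsCoatom M → ∃ g, M = cj g A ∨ M = cj g B) → Group.IsSolvable G := by
  induction n using Nat.strong_induction_on with
  | _ n ih =>
  intro G _ _ hn A B hall
  by_contra hs
  have hloc : ∀ (q : ℕ) (R : Subgroup G), q.Prime → IsPiSubgroup {q} R → R ≠ ⊥ → 𝒩(R) ≠ ⊤ := by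
    intro q R _ hR h1 h2
    have := normalizer_eq_top_iff.1 h2
    have h3 := pgp_sol hR
    have h4 : Group.IsSolvable (G ⧸ R) := by
      refine ih _ ?_ (G ⧸ R) rfl (A.map (QuotientGroup.mk' R)) (B.map (QuotientGroup.mk' R)) fun M hM => ?_
      · rw [← hn, card_eq_card_quotient_mul_card_subgroup R]
        exact lt_mul_of_one_lt_right Nat.card_pos (cardG_gt1.2 h1)
      · have h5 : ∀ (g : G) (X : Subgroup G), M.comap (QuotientGroup.mk' R) = cj g X →
            M = cj (QuotientGroup.mk' R g) (X.map (QuotientGroup.mk' R)) := fun g X e => by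
          rw [← map_comap_eq_self_of_surjective (QuotientGroup.mk'_surjective R) M, e, cj_def, cj_def,
            map_map, map_map]
          congr 1
        obtain ⟨g, hg⟩ := hall _ (isCoatom_comap_of_surjective (QuotientGroup.mk'_surjective R) hM)
        exact ⟨_, hg.imp (h5 g A) (h5 g B)⟩
    exact hs (Group.isSolvable_of_ker_le_range R.subtype (QuotientGroup.mk' R) (by simp))
  have fin : ∀ A B : Subgroup G, IsCoatom A → IsCoatom B →
      (∀ M : Subgroup G, IsCoatom M → ∃ g, M = cj g A ∨ M = cj g B) → False := by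
    intro A B hA hB hall
    have hall' : ∀ M : Subgroup G, IsCoatom M → ∃ g, M = cj g B ∨ M = cj g A :=
      fun M hM => (hall M hM).imp fun _ h => h.symm
    have h1 := cong_two hloc hall (norm_le hloc hall hA)
    have h2 := cong_two hloc hall' (norm_le hloc hall' hB)
    have h3 := one_lt_index_of_ne_top hA.1
    have h4 := one_lt_index_of_ne_top hB.1
    have h5 := Nat.le_of_dvd (by omega) h1
    have h6 := Nat.le_of_dvd (by omega) h2
    omega
  by_cases hA : IsCoatom A <;> by_cases hB : IsCoatom B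
  · exact fin A B hA hB hall
  · exact fin A A hA hA fun M hM => (hall M hM).imp fun g h =>
      h.imp_right fun e => absurd (isCoatom_cj.1 (e ▸ hM)) hB
  · exact fin B B hB hB fun M hM => (hall M hM).imp fun g h =>
      h.imp_left fun e => absurd (isCoatom_cj.1 (e ▸ hM)) hA
  · rcases eq_top_or_exists_le_coatom (⊥ : Subgroup G) with h | ⟨M, hM, -⟩
    · have : Subsingleton G := ⟨fun a b => by
        rw [mem_bot.1 (h ▸ mem_top a : a ∈ (⊥ : Subgroup G)), mem_bot.1 (h ▸ mem_top b : b ∈ (⊥ : Subgroup G))]⟩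
      exact hs inferInstance
    · obtain ⟨g, e | e⟩ := hall M hM
      · exact hA (isCoatom_cj.1 (e ▸ hM))
      · exact hB (isCoatom_cj.1 (e ▸ hM))

end CfsgLib.FewMax
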